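import Cfsg.Prelude.Def_GeometricClasses
import Cfsg.Agent.H873.Tv
import Cfsg.Agent.H929.FiveCheck

/-!
The monomial group of `SL_n(5)`, `n ≥ 5`: an overgroup `X` of the monomial matrices of
determinant one such that no non-monomial element of `X` fixes a coordinate line or a coordinate
hyperplane consists of monomial matrices.
-/

set_option autoImplicit false
set_option linter.unusedSectionVars false

namespace Cfsg.Agent.H929.MonoFive

open Matrix Cfsg.Agent.H873

variable {ι : Type} [Fintype ι] [DecidableEq ι] {F : Type*} [Field F]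

/-- Each column has at most one non-zero entry. -/
def IsMono (g : Matrix ι ι F) : Prop := ∀ j, ∃ i, ∀ i', i' ≠ i → g i' j = 0

/-- The monomial matrix `e_j ↦ c j e_{σ j}`. -/
def mon (σ : Equiv.Perm ι) (c : ι → F) (hc : ∀ j, c j ≠ 0) : GL ι F where
  val := Matrix.of fun i j => if i = σ j then c j else 0
  inv := Matrix.of fun i j => if i = σ.symm j then (c (σ.symm j))⁻¹ else 0
  val_inv := by
    ext i j
    rw [Matrix.mul_apply, Finset.sum_eq_single (σ.symm j)]
    · simp only [of_apply, Equiv.apply_symm_apply, if_true]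
      by_cases hij : i = j
      · subst hij
        rw [if_pos rfl, mul_inv_cancel₀ (hc _), one_apply_eq]
      · rw [if_neg hij, zero_mul, one_apply_ne hij]
    · intro b _ hb
      simp only [of_apply]
      rw [if_neg hb, mul_zero]
    · intro h
      exact absurd (Finset.mem_univ _) h
  inv_val := by
    ext i j
    rw [Matrix.mul_apply, Finset.sum_eq_single (σ j)]
    · simp only [of_apply, Equiv.symm_apply_apply, if_true]
      by_cases hij : i = j
      · subst hij
        rw [if_pos rfl, inv_mul_cancel₀ (hc _), one_apply_eq]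
      · rw [if_neg hij, zero_mul, one_apply_ne hij]
    · intro b _ hb
      simp only [of_apply]
      rw [if_neg hb, mul_zero]
    · intro h
      exact absurd (Finset.mem_univ _) h

theorem mon_apply (σ : Equiv.Perm ι) (c : ι → F) (hc : ∀ j, c j ≠ 0) (i j : ι) :
    (mon σ c hc : Matrix ι ι F) i j = if i = σ j then c j else 0 := rfl

theorem isMono_mon (σ : Equiv.Perm ι) (c : ι → F) (hc : ∀ j, c j ≠ 0) :
    IsMono (mon σ c hc : Matrix ι ι F) := by
  intro j
  refine ⟨σ j, fun i' hi' => ?_⟩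
  rw [mon_apply, if_neg hi']

theorem mon_mul (σ τ : Equiv.Perm ι) (c d : ι → F) (hc : ∀ j, c j ≠ 0) (hd : ∀ j, d j ≠ 0) :
    mon σ c hc * mon τ d hd = mon (σ * τ) (fun j => c (τ j) * d j)
      (fun j => mul_ne_zero (hc _) (hd _)) := by
  apply Units.ext
  ext i j
  rw [Units.val_mul, Matrix.mul_apply, Finset.sum_eq_single (τ j)]
  · rw [mon_apply, mon_apply, mon_apply, if_pos rfl]
    by_cases h : i = σ (τ j)
    · rw [if_pos h, if_pos (by rw [h]; rfl)]
    · rw [if_neg h, if_neg (by rw [Equiv.Perm.mul_apply]; exact h), zero_mul]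
  · intro b _ hb
    rw [mon_apply τ, if_neg hb, mul_zero]
  · intro h
    exact absurd (Finset.mem_univ _) h

theorem mon_inv (σ : Equiv.Perm ι) (c : ι → F) (hc : ∀ j, c j ≠ 0) :
    (mon σ c hc)⁻¹ = mon σ.symm (fun j => (c (σ.symm j))⁻¹) (fun j => inv_ne_zero (hc _)) := by
  apply Units.ext
  ext i j
  rfl

theorem exists_mon {g : GL ι F} (h : IsMono (g : Matrix ι ι F)) :
    ∃ (σ : Equiv.Perm ι) (c : ι → F) (hc : ∀ j, c j ≠ 0), g = mon σ c hc := by
  choose s hs using h
  have hinv : ((g⁻¹ : GL ι F) : Matrix ι ι F) * (g : Matrix ι ι F) = 1 := by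
    rw [← Units.val_mul, inv_mul_cancel, Units.val_one]
  have hentry : ∀ i j, (((g⁻¹ : GL ι F) : Matrix ι ι F) * (g : Matrix ι ι F)) i j =
      ((g⁻¹ : GL ι F) : Matrix ι ι F) i (s j) * (g : Matrix ι ι F) (s j) j := by
    intro i j
    rw [Matrix.mul_apply, Finset.sum_eq_single (s j)]
    · intro b _ hb
      rw [hs j b hb, mul_zero]
    · intro hb
      exact absurd (Finset.mem_univ _) hb
  have hne : ∀ j, (g : Matrix ι ι F) (s j) j ≠ 0 := by
    intro j h0
    have := hentry j j
    rw [hinv, h0, mul_zero, one_apply_eq] at this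
    exact one_ne_zero this
  have hsinj : Function.Injective s := by
    intro a b hab
    by_contra hne'
    have h1 := hentry a b
    rw [hinv, one_apply_ne hne', ← hab] at h1
    have h2 := hentry a a
    rw [hinv, one_apply_eq] at h2
    have h3 : (g : Matrix ι ι F) (s a) b ≠ 0 := by rw [hab]; exact hne b
    have h4 : ((g⁻¹ : GL ι F) : Matrix ι ι F) a (s a) = 0 := by
      rcases mul_eq_zero.1 h1.symm with h | h
      · exact h
      · exact absurd h h3
    rw [h4, zero_mul] at h2
    exact one_ne_zero h2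
  refine ⟨Equiv.ofBijective s (Finite.injective_iff_bijective.1 hsinj),
    fun j => (g : Matrix ι ι F) (s j) j, hne, ?_⟩
  apply Units.ext
  ext i j
  rw [mon_apply]
  by_cases hij : i = s j
  · subst hij
    simp
  · rw [hs j i hij, if_neg]
    simpa using hij

theorem IsMono.inv {g : GL ι F} (h : IsMono (g : Matrix ι ι F)) :
    IsMono ((g⁻¹ : GL ι F) : Matrix ι ι F) := by
  obtain ⟨σ, c, hc, rfl⟩ := exists_mon h
  rw [mon_inv]
  exact isMono_mon _ _ _

theorem isMono_inv_iff {g : GL ι F} :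
    IsMono ((g⁻¹ : GL ι F) : Matrix ι ι F) ↔ IsMono (g : Matrix ι ι F) := by
  refine ⟨fun h => ?_, fun h => h.inv⟩
  have := h.inv
  rwa [inv_inv] at this

theorem IsMono.mul {g h : GL ι F} (hg : IsMono (g : Matrix ι ι F))
    (hh : IsMono (h : Matrix ι ι F)) : IsMono ((g * h : GL ι F) : Matrix ι ι F) := by
  obtain ⟨σ, c, hc, rfl⟩ := exists_mon hg
  obtain ⟨τ, d, hd, rfl⟩ := exists_mon hh
  rw [mon_mul]
  exact isMono_mon _ _ _

theorem isMono_mul_iff {g h : GL ι F} (hg : IsMono (g : Matrix ι ι F)) :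
    IsMono ((g * h : GL ι F) : Matrix ι ι F) ↔ IsMono (h : Matrix ι ι F) := by
  refine ⟨fun hh => ?_, fun hh => hg.mul hh⟩
  have := hg.inv.mul hh
  rwa [inv_mul_cancel_left] at this

/-- the determinant of a monomial matrix that is a swap with sign or a diagonal matrix -/
theorem det_mon_one (c : ι → F) (hc : ∀ j, c j ≠ 0) :
    Matrix.det (mon 1 c hc : Matrix ι ι F) = ∏ j, c j := by
  have : (mon 1 c hc : Matrix ι ι F) = Matrix.diagonal c := by
    ext i j
    rw [mon_apply, Matrix.diagonal_apply]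
    by_cases h : i = j
    · subst h
      simp
    · rw [if_neg h, if_neg (by simpa using h)]
  rw [this, det_diagonal]

theorem det_mon (σ : Equiv.Perm ι) (c : ι → F) (hc : ∀ j, c j ≠ 0) :
    Matrix.det (mon σ c hc : Matrix ι ι F) = (Equiv.Perm.sign σ : F) * ∏ j, c j := by
  have : (mon σ c hc : Matrix ι ι F) = (Matrix.diagonal c).submatrix σ.symm id := by
    ext i j
    rw [mon_apply, Matrix.submatrix_apply, Matrix.diagonal_apply, id_eq]
    by_cases h : i = σ j
    · subst h
      simp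
    · rw [if_neg h, if_neg]
      intro h'
      exact h (by rw [← h', Equiv.apply_symm_apply])
  rw [this, Matrix.det_permute, det_diagonal, Equiv.Perm.sign_symm]

/-! ### Conjugates of diagonal matrices -/

/-- `g diag(t) g⁻¹` as a matrix. -/
def cd (g : GL ι F) (t : ι → F) : Matrix ι ι F :=
  (g : Matrix ι ι F) * Matrix.diagonal t * ((g⁻¹ : GL ι F) : Matrix ι ι F)

theorem cd_apply (g : GL ι F) (t : ι → F) (i j : ι) :
    cd g t i j = ∑ k, t k * ((g : Matrix ι ι F) i k * ((g⁻¹ : GL ι F) : Matrix ι ι F) k j) := by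
  unfold cd
  rw [Matrix.mul_apply]
  apply Finset.sum_congr rfl
  intro k _
  rw [Matrix.mul_diagonal]
  ring

theorem cd_mul (g : GL ι F) (t s : ι → F) : cd g t * cd g s = cd g (t * s) := by
  unfold cd
  have h : ((g⁻¹ : GL ι F) : Matrix ι ι F) * (g : Matrix ι ι F) = 1 := by
    rw [← Units.val_mul, inv_mul_cancel, Units.val_one]
  calc (g : Matrix ι ι F) * Matrix.diagonal t * ((g⁻¹ : GL ι F) : Matrix ι ι F) *
        ((g : Matrix ι ι F) * Matrix.diagonal s * ((g⁻¹ : GL ι F) : Matrix ι ι F))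
      = (g : Matrix ι ι F) * Matrix.diagonal t * (((g⁻¹ : GL ι F) : Matrix ι ι F) *
        (g : Matrix ι ι F)) * Matrix.diagonal s * ((g⁻¹ : GL ι F) : Matrix ι ι F) := by
        simp only [Matrix.mul_assoc]
    _ = _ := by
        rw [h, Matrix.mul_one, Matrix.mul_assoc (g : Matrix ι ι F), Matrix.diagonal_mul_diagonal]
        rfl

theorem cd_one (g : GL ι F) : cd g 1 = 1 := by
  unfold cd
  have h : (g : Matrix ι ι F) * ((g⁻¹ : GL ι F) : Matrix ι ι F) = 1 := by
    rw [← Units.val_mul, mul_inv_cancel, Units.val_one]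
  have h1 : Matrix.diagonal (1 : ι → F) = 1 := Matrix.diagonal_one
  rw [h1, Matrix.mul_one, h]

theorem cd_add (g : GL ι F) (t s : ι → F) : cd g (t + s) = cd g t + cd g s := by
  ext i j
  rw [Matrix.add_apply, cd_apply, cd_apply, cd_apply, ← Finset.sum_add_distrib]
  apply Finset.sum_congr rfl
  intro k _
  rw [Pi.add_apply, add_mul]

theorem cd_smul (g : GL ι F) (c : F) (t : ι → F) : cd g (c • t) = c • cd g t := by
  ext i j
  rw [Matrix.smul_apply, cd_apply, cd_apply, smul_eq_mul, Finset.mul_sum]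
  apply Finset.sum_congr rfl
  intro k _
  rw [Pi.smul_apply, smul_eq_mul, mul_assoc]

theorem cd_sub (g : GL ι F) (t s : ι → F) : cd g (t - s) = cd g t - cd g s := by
  ext i j
  rw [Matrix.sub_apply, cd_apply, cd_apply, cd_apply, ← Finset.sum_sub_distrib]
  apply Finset.sum_congr rfl
  intro k _
  rw [Pi.sub_apply, sub_mul]

theorem cd_eq_conj (g : GL ι F) (t : ι → F) (ht : ∀ k, t k ≠ 0) :
    ((g * mon 1 t ht * g⁻¹ : GL ι F) : Matrix ι ι F) = cd g t := by
  unfold cd
  rw [Units.val_mul, Units.val_mul]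
  congr 2
  ext i j
  rw [mon_apply, Matrix.diagonal_apply]
  by_cases h : i = j
  · subst h
    simp
  · rw [if_neg h, if_neg (by simpa using h)]

/-- the torus element with entries `a`, `a⁻¹` at `k`, `l`. -/
def tk (k l : ι) (a : F) : ι → F := fun m => if m = k then a else if m = l then a⁻¹ else 1

theorem tk_ne (k l : ι) {a : F} (ha : a ≠ 0) (m : ι) : tk k l a m ≠ 0 := by
  unfold tk
  split_ifs
  · exact ha
  · exact inv_ne_zero ha
  · exact one_ne_zero

theorem tk_left (k l : ι) (a : F) : tk k l a k = a := if_pos rfl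

theorem tk_right {k l : ι} (h : k ≠ l) (a : F) : tk k l a l = a⁻¹ := by
  unfold tk
  rw [if_neg h.symm, if_pos rfl]

theorem tk_other {k l m : ι} (h : m ≠ k) (h' : m ≠ l) (a : F) : tk k l a m = 1 := by
  unfold tk
  rw [if_neg h, if_neg h']

theorem tk_prod {k l : ι} (h : k ≠ l) {a : F} (ha : a ≠ 0) : ∏ m, tk k l a m = 1 := by
  rw [← Finset.mul_prod_erase _ _ (Finset.mem_univ k),
    ← Finset.mul_prod_erase _ _ (Finset.mem_erase.2 ⟨h.symm, Finset.mem_univ l⟩),
    tk_left, tk_right h, Finset.prod_eq_one, mul_one, mul_inv_cancel₀ ha]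
  intro m hm
  rw [Finset.mem_erase, Finset.mem_erase] at hm
  exact tk_other hm.2.1 hm.1 a

theorem inv_mul_apply' (g : GL ι F) (i j : ι) :
    ∑ m, ((g⁻¹ : GL ι F) : Matrix ι ι F) i m * (g : Matrix ι ι F) m j =
      (1 : Matrix ι ι F) i j := by
  rw [← Matrix.mul_apply, ← Units.val_mul, inv_mul_cancel, Units.val_one]

theorem mul_inv_apply' (g : GL ι F) (i j : ι) :
    ∑ m, (g : Matrix ι ι F) i m * ((g⁻¹ : GL ι F) : Matrix ι ι F) m j =
      (1 : Matrix ι ι F) i j := by
  rw [← Matrix.mul_apply, ← Units.val_mul, mul_inv_cancel, Units.val_one]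

theorem cd_apply' (g : GL ι F) (t : ι → F) (i j : ι) :
    cd g t i j = (1 : Matrix ι ι F) i j +
      ∑ k, (t k - 1) * ((g : Matrix ι ι F) i k * ((g⁻¹ : GL ι F) : Matrix ι ι F) k j) := by
  rw [cd_apply, ← mul_inv_apply' g i j, ← Finset.sum_add_distrib]
  apply Finset.sum_congr rfl
  intro k _
  ring

theorem cd_tk (g : GL ι F) {k l : ι} (h : k ≠ l) (a : F) (i j : ι) :
    cd g (tk k l a) i j = (1 : Matrix ι ι F) i j +
      ((a - 1) * ((g : Matrix ι ι F) i k * ((g⁻¹ : GL ι F) : Matrix ι ι F) k j) +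
       (a⁻¹ - 1) * ((g : Matrix ι ι F) i l * ((g⁻¹ : GL ι F) : Matrix ι ι F) l j)) := by
  rw [cd_apply', ← Finset.add_sum_erase _ _ (Finset.mem_univ k),
    ← Finset.add_sum_erase _ _ (Finset.mem_erase.2 ⟨h.symm, Finset.mem_univ l⟩),
    tk_left, tk_right h, Finset.sum_eq_zero, add_zero]
  intro m hm
  rw [Finset.mem_erase, Finset.mem_erase] at hm
  rw [tk_other hm.2.1 hm.1, sub_self, zero_mul]

/-- The idempotent of the two lines. -/
def pr (k l : ι) : ι → F := fun m => if m = k then 1 else if m = l then 1 else 0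

theorem five_eq_zero [Fintype F] (hF : Fintype.card F = 5) : (5 : F) = 0 := by
  have := FiniteField.cast_card_eq_zero F
  rw [hF] at this
  exact_mod_cast this

theorem three_ne [Fintype F] (hF : Fintype.card F = 5) : (3 : F) ≠ 0 := by
  intro h
  have h5 := five_eq_zero hF
  have : (1 : F) = 0 := by linear_combination 2 * h - h5
  exact one_ne_zero this

theorem two_ne [Fintype F] (hF : Fintype.card F = 5) : (2 : F) ≠ 0 := by
  intro h
  have h5 := five_eq_zero hF
  have : (1 : F) = 0 := by linear_combination h5 - 2 * h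
  exact one_ne_zero this

theorem two_inv [Fintype F] (hF : Fintype.card F = 5) : (2 : F)⁻¹ = 3 := by
  have h5 := five_eq_zero hF
  rw [inv_eq_iff_eq_inv, ← one_div, eq_div_iff (three_ne hF)]
  linear_combination h5

/-- If `g t_{kl}(2) g⁻¹` is monomial then the idempotent is diagonal. -/
theorem pr_diag [Fintype F] (hF : Fintype.card F = 5) (g : GL ι F) {k l : ι} (hkl : k ≠ l)
    (h : IsMono (cd g (tk k l 2))) {i j : ι} (hij : i ≠ j) : cd g (pr k l) i j = 0 := by
  have h5 := five_eq_zero hF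
  have h2 := two_ne hF
  set t : ι → F := tk k l 2 with ht
  have htne : ∀ m, t m ≠ 0 := tk_ne k l h2
  have hy := cd_eq_conj g t htne
  rw [← hy] at h
  obtain ⟨σ, c, hc, hmon⟩ := exists_mon h
  have hY : cd g t = (mon σ c hc : Matrix ι ι F) := by rw [← hy, hmon]
  have hY2 : cd g (t * t) = (mon (σ * σ) _ (fun j => mul_ne_zero (hc (σ j)) (hc j)) :
      Matrix ι ι F) := by
    rw [← cd_mul, hY, ← mon_mul, Units.val_mul]
  have hY3 : cd g (t * t * t) = (mon (σ * σ * σ) _
      (fun j => mul_ne_zero (mul_ne_zero (hc (σ (σ j))) (hc (σ j))) (hc j)) :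
      Matrix ι ι F) := by
    rw [← cd_mul, hY2, hY, ← mon_mul (σ * σ) σ _ c (fun j => mul_ne_zero (hc (σ j)) (hc j)) hc,
      Units.val_mul]
  have hpoly : t * t * t - t * t + t - 1 = 0 := by
    funext m
    simp only [Pi.sub_apply, Pi.add_apply, Pi.mul_apply, Pi.one_apply, Pi.zero_apply]
    by_cases hmk : m = k
    · rw [ht, hmk, tk_left]
      linear_combination h5
    · by_cases hml : m = l
      · rw [ht, hml, tk_right hkl, two_inv hF]
        linear_combination 4 * h5
      · rw [ht, tk_other hmk hml]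
        ring
  have hcd0 : cd g (0 : ι → F) = 0 := by
    ext a b
    rw [cd_apply]
    simp
  have hid : cd g (t * t * t) - cd g (t * t) + cd g t - 1 = 0 := by
    rw [← cd_one g, ← cd_sub, ← cd_add, ← cd_sub, hpoly, hcd0]
  have hσ : ∀ a, σ (σ a) = a := by
    intro a
    by_cases ha : σ a = a
    · rw [ha, ha]
    · have h1 := congrFun (congrFun hid (σ a)) a
      rw [Matrix.sub_apply, Matrix.add_apply, Matrix.sub_apply, hY3, hY2, hY, mon_apply,
        mon_apply, mon_apply, if_pos rfl, one_apply_ne ha, Matrix.zero_apply,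
        if_neg (fun e : σ a = (σ * σ) a => ha (σ.injective (by
          rw [Equiv.Perm.mul_apply] at e; exact e.symm)))] at h1
      by_cases h3 : σ a = (σ * σ * σ) a
      · have : a = σ (σ a) := σ.injective (show σ a = σ (σ (σ a)) from h3)
        exact this.symm
      · rw [if_neg h3] at h1
        exfalso
        apply hc a
        linear_combination h1
  have htt : t * t = 1 + (3 : F) • pr k l := by
    funext m
    simp only [Pi.add_apply, Pi.mul_apply, Pi.one_apply, Pi.smul_apply, smul_eq_mul]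
    unfold pr
    by_cases hmk : m = k
    · rw [ht, hmk, tk_left, if_pos rfl]
      ring
    · by_cases hml : m = l
      · rw [ht, hml, tk_right hkl, two_inv hF, if_neg hkl.symm, if_pos rfl]
        linear_combination h5
      · rw [ht, tk_other hmk hml, if_neg hmk, if_neg hml]
        ring
  have h1 : cd g (t * t) i j = 0 := by
    rw [hY2, mon_apply, if_neg]
    rw [Equiv.Perm.mul_apply, hσ]
    exact hij
  rw [htt, cd_add, cd_one, cd_smul, Matrix.add_apply, one_apply_ne hij, zero_add,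
    Matrix.smul_apply, smul_eq_mul] at h1
  exact (mul_eq_zero.1 h1).resolve_left (three_ne hF)

/-! ### Overgroups of the monomial group -/

/-- `X` contains the monomial matrices of determinant one, and no non-monomial element of `X`
fixes a coordinate line or a coordinate hyperplane. -/
structure Hyp (X : Subgroup (GL ι F)) : Prop where
  mon_mem : ∀ (σ : Equiv.Perm ι) (c : ι → F) (hc : ∀ j, c j ≠ 0),
    Matrix.det (mon σ c hc : Matrix ι ι F) = 1 → mon σ c hc ∈ X
  col : ∀ x ∈ X, ∀ j, (∀ i, i ≠ j → (x : Matrix ι ι F) i j = 0) → IsMono (x : Matrix ι ι F)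
  row : ∀ x ∈ X, ∀ i, (∀ j, j ≠ i → (x : Matrix ι ι F) i j = 0) → IsMono (x : Matrix ι ι F)

variable {X : Subgroup (GL ι F)}

theorem Hyp.col' (hX : Hyp X) {x : GL ι F} (hx : x ∈ X) {a j : ι}
    (h : ∀ i, i ≠ a → (x : Matrix ι ι F) i j = 0) : IsMono (x : Matrix ι ι F) := by
  by_cases haj : a = j
  · subst haj
    exact hX.col x hx a h
  · have hc : ∀ m, Function.update (1 : ι → F) a (-1) m ≠ 0 := by
      intro m
      by_cases hm : m = a
      · subst hm
        rw [Function.update_self]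
        exact neg_ne_zero.2 one_ne_zero
      · rw [Function.update_of_ne hm]
        exact one_ne_zero
    have hs : mon (Equiv.swap a j) (Function.update (1 : ι → F) a (-1)) hc ∈ X := by
      apply hX.mon_mem
      rw [det_mon, Equiv.Perm.sign_swap haj, Finset.prod_update_of_mem (Finset.mem_univ a)]
      simp
    rw [← isMono_mul_iff (isMono_mon (Equiv.swap a j) (Function.update (1 : ι → F) a (-1)) hc)]
    apply hX.col _ (X.mul_mem hs hx) j
    intro i hi
    rw [Units.val_mul, Matrix.mul_apply]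
    apply Finset.sum_eq_zero
    intro b _
    rw [mon_apply]
    by_cases hb : i = Equiv.swap a j b
    · have : b ≠ a := by
        rintro rfl
        apply hi
        rw [hb, Equiv.swap_apply_left]
      rw [h b this, mul_zero]
    · rw [if_neg hb, zero_mul]

theorem Hyp.cd_mem (hX : Hyp X) {g : GL ι F} (hg : g ∈ X) {t : ι → F} (ht : ∀ k, t k ≠ 0)
    (hprod : ∏ k, t k = 1) : g * mon 1 t ht * g⁻¹ ∈ X := by
  refine X.mul_mem (X.mul_mem hg (hX.mon_mem _ _ _ ?_)) (X.inv_mem hg)
  rw [det_mon_one, hprod]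

theorem Hyp.mono_cd_of_col (hX : Hyp X) {g : GL ι F} (hg : g ∈ X) {t : ι → F}
    (ht : ∀ k, t k ≠ 0) (hprod : ∏ k, t k = 1) {a j : ι}
    (h : ∀ i, i ≠ a → cd g t i j = 0) : IsMono (cd g t) := by
  rw [← cd_eq_conj g t ht] at h ⊢
  exact hX.col' (hX.cd_mem hg ht hprod) h

theorem Hyp.mono_cd_of_row (hX : Hyp X) {g : GL ι F} (hg : g ∈ X) {t : ι → F}
    (ht : ∀ k, t k ≠ 0) (hprod : ∏ k, t k = 1) {i : ι}
    (h : ∀ j, j ≠ i → cd g t i j = 0) : IsMono (cd g t) := by
  rw [← cd_eq_conj g t ht] at h ⊢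
  exact hX.row _ (hX.cd_mem hg ht hprod) i h

theorem exists_three_other (hn : 5 ≤ Fintype.card ι) (k l : ι) :
    ∃ a b c : ι, a ≠ b ∧ a ≠ c ∧ b ≠ c ∧ a ≠ k ∧ a ≠ l ∧ b ≠ k ∧ b ≠ l ∧ c ≠ k ∧ c ≠ l := by
  have h : 2 < (Finset.univ \ {k, l} : Finset ι).card := by
    have h1 := Finset.le_card_sdiff {k, l} (Finset.univ : Finset ι)
    have h2 : ({k, l} : Finset ι).card ≤ 2 := Finset.card_le_two
    have h3 : (Finset.univ : Finset ι).card = Fintype.card ι := Finset.card_univ
    omega
  obtain ⟨a, b, c, ha, hb, hc, hab, hac, hbc⟩ := Finset.two_lt_card_iff.1 h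
  simp only [Finset.mem_sdiff, Finset.mem_univ, true_and, Finset.mem_insert,
    Finset.mem_singleton, not_or] at ha hb hc
  exact ⟨a, b, c, hab, hac, hbc, ha.1, ha.2, hb.1, hb.2, hc.1, hc.2⟩

theorem mono_tk_two [Fintype F] (hF : Fintype.card F = 5) (hn : 5 ≤ Fintype.card ι)
    (hX : Hyp X) {g : GL ι F} (hg : g ∈ X) {k l : ι} (hkl : k ≠ l)
    (h : IsMono (cd g (tk k l 2))) : IsMono (g : Matrix ι ι F) := by
  have h2 := two_ne hF
  have hP : ∀ i j, i ≠ j → cd g (pr k l) i j = 0 := fun i j => pr_diag hF g hkl h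
  -- a column fixed up to scalars
  have hexa : ∃ a, cd g (pr k l) a a ≠ 0 := by
    by_contra hcon
    push Not at hcon
    have h0 : cd g (pr k l) = 0 := by
      ext i j
      by_cases hij : i = j
      · subst hij
        rw [hcon, Matrix.zero_apply]
      · rw [hP i j hij, Matrix.zero_apply]
    have h1 : Matrix.diagonal (pr k l : ι → F) = 0 := by
      have : ((g⁻¹ : GL ι F) : Matrix ι ι F) * cd g (pr k l) * (g : Matrix ι ι F) =
          Matrix.diagonal (pr k l) := by
        unfold cd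
        have h : ((g⁻¹ : GL ι F) : Matrix ι ι F) * (g : Matrix ι ι F) = 1 := by
          rw [← Units.val_mul, inv_mul_cancel, Units.val_one]
        calc _ = (((g⁻¹ : GL ι F) : Matrix ι ι F) * (g : Matrix ι ι F)) *
              Matrix.diagonal (pr k l) * (((g⁻¹ : GL ι F) : Matrix ι ι F) *
              (g : Matrix ι ι F)) := by simp only [Matrix.mul_assoc]
          _ = _ := by rw [h, Matrix.one_mul, Matrix.mul_one]
      rw [← this, h0, Matrix.mul_zero, Matrix.zero_mul]
    have h3 := congrFun (congrFun h1 k) k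
    rw [Matrix.diagonal_apply_eq, Matrix.zero_apply] at h3
    unfold pr at h3
    rw [if_pos rfl] at h3
    exact one_ne_zero h3
  obtain ⟨a, ha⟩ := hexa
  have hmono : ∀ m m' : ι, m ≠ m' → m ≠ k → m ≠ l → m' ≠ k → m' ≠ l →
      IsMono (cd g (tk m m' 2)) := by
    intro m m' hmm hmk hml hmk' hml'
    refine hX.mono_cd_of_col hg (tk_ne m m' h2) (tk_prod hmm h2) (a := a) (j := a) ?_
    intro i hi
    have hmul : cd g (tk m m' 2) * cd g (pr k l) = cd g (pr k l) := by
      rw [cd_mul]
      congr 1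
      funext b
      rw [Pi.mul_apply]
      unfold pr
      by_cases hbk : b = k
      · rw [hbk, tk_other hmk.symm hmk'.symm, if_pos rfl, one_mul]
      · by_cases hbl : b = l
        · rw [hbl, tk_other hml.symm hml'.symm, one_mul]
        · rw [if_neg hbk, if_neg hbl, mul_zero]
    have h1 := congrFun (congrFun hmul i) a
    rw [hP i a hi, Matrix.mul_apply, Finset.sum_eq_single a] at h1
    · exact (mul_eq_zero.1 h1).resolve_right ha
    · intro b _ hb
      rw [hP b a hb, mul_zero]
    · intro hb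
      exact absurd (Finset.mem_univ _) hb
  obtain ⟨m₁, m₂, m₃, h12, h13, h23, h1k, h1l, h2k, h2l, h3k, h3l⟩ := exists_three_other hn k l
  have hd12 := fun i j => pr_diag (i := i) (j := j) hF g h12 (hmono _ _ h12 h1k h1l h2k h2l)
  have hd13 := fun i j => pr_diag (i := i) (j := j) hF g h13 (hmono _ _ h13 h1k h1l h3k h3l)
  have hd23 := fun i j => pr_diag (i := i) (j := j) hF g h23 (hmono _ _ h23 h2k h2l h3k h3l)
  have hpr : ∀ m m' : ι, m ≠ m' → ∀ i j, cd g (pr m m') i j =
      (g : Matrix ι ι F) i m * ((g⁻¹ : GL ι F) : Matrix ι ι F) m j +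
      (g : Matrix ι ι F) i m' * ((g⁻¹ : GL ι F) : Matrix ι ι F) m' j := by
    intro m m' hmm i j
    rw [cd_apply, ← Finset.add_sum_erase _ _ (Finset.mem_univ m),
      ← Finset.add_sum_erase _ _ (Finset.mem_erase.2 ⟨hmm.symm, Finset.mem_univ m'⟩),
      Finset.sum_eq_zero, add_zero]
    · unfold pr
      rw [if_pos rfl, if_neg hmm.symm, if_pos rfl, one_mul, one_mul]
    · intro b hb
      rw [Finset.mem_erase, Finset.mem_erase] at hb
      unfold pr
      rw [if_neg hb.2.1, if_neg hb.1, zero_mul]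
  have hone : ∀ i j, i ≠ j →
      (g : Matrix ι ι F) i m₁ * ((g⁻¹ : GL ι F) : Matrix ι ι F) m₁ j = 0 := by
    intro i j hij
    have e1 := hd12 i j hij
    have e2 := hd13 i j hij
    have e3 := hd23 i j hij
    rw [hpr _ _ h12] at e1
    rw [hpr _ _ h13] at e2
    rw [hpr _ _ h23] at e3
    have : (2 : F) * ((g : Matrix ι ι F) i m₁ * ((g⁻¹ : GL ι F) : Matrix ι ι F) m₁ j) = 0 := by
      linear_combination e1 + e2 - e3
    exact (mul_eq_zero.1 this).resolve_left h2
  have hexb : ∃ b, ((g⁻¹ : GL ι F) : Matrix ι ι F) m₁ b ≠ 0 := by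
    by_contra hcon
    push Not at hcon
    have h1 := inv_mul_apply' g m₁ m₁
    rw [one_apply_eq, Finset.sum_eq_zero] at h1
    · exact zero_ne_one h1
    · intro b _
      rw [hcon b, zero_mul]
  obtain ⟨b, hb⟩ := hexb
  refine hX.col' hg (a := b) (j := m₁) ?_
  intro i hi
  exact (mul_eq_zero.1 (hone i b hi)).resolve_right hb

theorem elements_five [Fintype F] (hF : Fintype.card F = 5) {a : F} (h0 : a ≠ 0) (h1 : a ≠ 1) :
    a = 2 ∨ a = 3 ∨ a = 4 := by
  have h5 := five_eq_zero hF
  have h4 : a ^ 4 = 1 := by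
    have := FiniteField.pow_card_sub_one_eq_one a h0
    rwa [hF] at this
  have h : (a - 1) * ((a - 2) * ((a - 3) * (a - 4))) = 0 := by
    linear_combination h4 + (5 - 2 * a ^ 3 + 7 * a ^ 2 - 10 * a) * h5
  rcases mul_eq_zero.1 h with h | h
  · exact absurd (sub_eq_zero.1 h) h1
  rcases mul_eq_zero.1 h with h | h
  · exact Or.inl (sub_eq_zero.1 h)
  rcases mul_eq_zero.1 h with h | h
  · exact Or.inr (Or.inl (sub_eq_zero.1 h))
  · exact Or.inr (Or.inr (sub_eq_zero.1 h))

theorem card_elements_five [Fintype F] (hF : Fintype.card F = 5) (x y z u v : F)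
    (hx : x ≠ 0) (hy : y ≠ 0) (hz : z ≠ 0) (hu : u ≠ 0) (hv : v ≠ 0) (h1 : x ≠ y) (h2 : x ≠ z)
    (h3 : x ≠ u) (h4 : x ≠ v) (h5 : y ≠ z) (h6 : y ≠ u) (h7 : y ≠ v) (h8 : z ≠ u) (h9 : z ≠ v)
    (h10 : u ≠ v) : False := by
  classical
  have hc : ({0, x, y, z, u, v} : Finset F).card = 6 := by
    rw [Finset.card_insert_of_notMem, Finset.card_insert_of_notMem, Finset.card_insert_of_notMem,
      Finset.card_insert_of_notMem, Finset.card_insert_of_notMem, Finset.card_singleton]
    · simpa using h10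
    · simp [h8, h9]
    · simp [h5, h6, h7]
    · simp [h1, h2, h3, h4]
    · simp [hx.symm, hy.symm, hz.symm, hu.symm, hv.symm]
  have := Finset.card_le_univ ({0, x, y, z, u, v} : Finset F)
  rw [hc, hF] at this
  omega

theorem mono_tk_four [Fintype F] (hF : Fintype.card F = 5) (hn : 5 ≤ Fintype.card ι)
    (hX : Hyp X) {g : GL ι F} (hg : g ∈ X) {k l : ι} (hkl : k ≠ l)
    (h : IsMono (cd g (tk k l 4))) : IsMono (g : Matrix ι ι F) := by
  have h5 := five_eq_zero hF
  have h2 := two_ne hF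
  have h3 := three_ne hF
  have h4 : (4 : F) ≠ 0 := by
    intro h4
    have : (1 : F) = 0 := by linear_combination h5 - h4
    exact one_ne_zero this
  have h4i : (4 : F)⁻¹ = 4 := by
    rw [inv_eq_iff_eq_inv, ← one_div, eq_div_iff h4]
    linear_combination 3 * h5
  have hy := cd_eq_conj g (tk k l (4 : F)) (tk_ne k l h4)
  rw [← hy] at h
  obtain ⟨σ, c, hc, hmon⟩ := exists_mon h
  have hZ : cd g (tk k l 4) = (mon σ c hc : Matrix ι ι F) := by rw [← hy, hmon]
  have hsq : ∀ a, σ (σ a) = a := by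
    have hZ2 : cd g (tk k l 4 * tk k l 4) =
        (mon (σ * σ) _ (fun j => mul_ne_zero (hc (σ j)) (hc j)) : Matrix ι ι F) := by
      rw [← cd_mul, hZ, ← mon_mul, Units.val_mul]
    have h1 : (tk k l (4 : F) * tk k l 4) = 1 := by
      funext m
      rw [Pi.mul_apply, Pi.one_apply]
      by_cases hmk : m = k
      · rw [hmk, tk_left]
        linear_combination 3 * h5
      · by_cases hml : m = l
        · rw [hml, tk_right hkl, h4i]
          linear_combination 3 * h5
        · rw [tk_other hmk hml, one_mul]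
    rw [h1, cd_one] at hZ2
    intro a
    by_contra ha
    have := congrFun (congrFun hZ2 (σ (σ a))) a
    rw [one_apply_ne ha, mon_apply, if_pos (show σ (σ a) = (σ * σ) a from rfl)] at this
    exact mul_ne_zero (hc (σ a)) (hc a) this.symm
  -- the idempotent
  have hP : ∀ i j, 3 * ((g : Matrix ι ι F) i k * ((g⁻¹ : GL ι F) : Matrix ι ι F) k j +
      (g : Matrix ι ι F) i l * ((g⁻¹ : GL ι F) : Matrix ι ι F) l j) =
      (if i = σ j then c j else 0) - (1 : Matrix ι ι F) i j := by
    intro i j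
    have := cd_tk g hkl 4 i j
    rw [hZ, mon_apply, h4i] at this
    rw [this]
    ring
  have hexa : ∃ a, σ a = a ∧ c a = 1 := by
    by_contra hcon
    push Not at hcon
    obtain ⟨a₂, a₃, -, h23, -, -, h2k, h2l, h3k, h3l, -, -⟩ :
        ∃ b c d : ι, b ≠ c ∧ (b ≠ d) ∧ (c ≠ d) ∧ b ≠ k ∧ b ≠ σ k ∧ c ≠ k ∧ c ≠ σ k ∧
          d ≠ k ∧ d ≠ σ k := exists_three_other hn k (σ k)
    -- a third element outside `{k, σ k, a₂, σ a₂}`
    obtain ⟨b, hb⟩ : ∃ b : ι, b ∉ ({k, σ k, a₂, σ a₂} : Finset ι) := by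
      by_contra hcon2
      push Not at hcon2
      have h1 : (Finset.univ : Finset ι) ⊆ {k, σ k, a₂, σ a₂} := fun b _ => hcon2 b
      have h2 := Finset.card_le_card h1
      have h3 : ({k, σ k, a₂, σ a₂} : Finset ι).card ≤ 4 := Finset.card_le_four
      rw [Finset.card_univ] at h2
      omega
    simp only [Finset.mem_insert, Finset.mem_singleton, not_or] at hb
    obtain ⟨hbk, hbσk, hb2, hbσ2⟩ := hb
    have hdiag : ∀ a, (g : Matrix ι ι F) (σ a) k * ((g⁻¹ : GL ι F) : Matrix ι ι F) k a +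
        (g : Matrix ι ι F) (σ a) l * ((g⁻¹ : GL ι F) : Matrix ι ι F) l a ≠ 0 := by
      intro a h0
      have h1 := hP (σ a) a
      rw [h0, mul_zero, if_pos rfl] at h1
      by_cases ha : σ a = a
      · rw [ha, one_apply_eq] at h1
        exact hcon a ha (by linear_combination -h1)
      · rw [one_apply_ne ha, sub_zero] at h1
        exact hc a h1.symm
    have hoff : ∀ a a', σ a ≠ σ a' → σ a ≠ a' →
        (g : Matrix ι ι F) (σ a) k * ((g⁻¹ : GL ι F) : Matrix ι ι F) k a' +
        (g : Matrix ι ι F) (σ a) l * ((g⁻¹ : GL ι F) : Matrix ι ι F) l a' = 0 := by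
      intro a a' h1 h2
      have h3' := hP (σ a) a'
      rw [if_neg h1, one_apply_ne h2, sub_zero] at h3'
      exact (mul_eq_zero.1 h3').resolve_left h3
    have hσne : ∀ a a', a ≠ a' → σ a ≠ σ a' := fun a a' h e => h (σ.injective e)
    have hσne' : ∀ a a', a' ≠ σ a → σ a' ≠ a := by
      intro a a' h e
      apply h
      rw [← e, hsq]
    have e12 := hoff k a₂ (hσne _ _ h2k.symm) h2l.symm
    have e21 := hoff a₂ k (hσne _ _ h2k) (hσne' _ _ h2l)
    have e13 := hoff k b (hσne _ _ (Ne.symm hbk)) (Ne.symm hbσk)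
    have e31 := hoff b k (hσne _ _ hbk) (hσne' _ _ hbσk)
    have e23 := hoff a₂ b (hσne _ _ (Ne.symm hb2)) (Ne.symm hbσ2)
    have e32 := hoff b a₂ (hσne _ _ hb2) (hσne' _ _ hbσ2)
    have d1 := hdiag k
    have d2 := hdiag a₂
    have d3 := hdiag b
    generalize (g : Matrix ι ι F) (σ k) k = p1 at *
    generalize (g : Matrix ι ι F) (σ a₂) k = p2 at *
    generalize (g : Matrix ι ι F) (σ b) k = p3 at *
    generalize (g : Matrix ι ι F) (σ k) l = r1 at *
    generalize (g : Matrix ι ι F) (σ a₂) l = r2 at *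
    generalize (g : Matrix ι ι F) (σ b) l = r3 at *
    generalize ((g⁻¹ : GL ι F) : Matrix ι ι F) k k = q1 at *
    generalize ((g⁻¹ : GL ι F) : Matrix ι ι F) k a₂ = q2 at *
    generalize ((g⁻¹ : GL ι F) : Matrix ι ι F) k b = q3 at *
    generalize ((g⁻¹ : GL ι F) : Matrix ι ι F) l k = s1 at *
    generalize ((g⁻¹ : GL ι F) : Matrix ι ι F) l a₂ = s2 at *
    generalize ((g⁻¹ : GL ι F) : Matrix ι ι F) l b = s3 at *
    apply mul_ne_zero (mul_ne_zero d1 d2) d3
    have hdet : (p1 * q1 + r1 * s1) * (p2 * q2 + r2 * s2) * (p3 * q3 + r3 * s3) =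
        (p1 * q1 + r1 * s1) * (p2 * q3 + r2 * s3) * (p3 * q2 + r3 * s2) +
        (p1 * q2 + r1 * s2) * (p2 * q1 + r2 * s1) * (p3 * q3 + r3 * s3) -
        (p1 * q2 + r1 * s2) * (p2 * q3 + r2 * s3) * (p3 * q1 + r3 * s1) -
        (p1 * q3 + r1 * s3) * (p2 * q1 + r2 * s1) * (p3 * q2 + r3 * s2) +
        (p1 * q3 + r1 * s3) * (p2 * q2 + r2 * s2) * (p3 * q1 + r3 * s1) := by ring
    rw [hdet, e12, e13, e23]
    ring
  obtain ⟨a, ha, hca⟩ := hexa
  have hPa : ∀ i, cd g (pr k l) i a = 0 := by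
    intro i
    have h1 := hP i a
    have h6 : cd g (pr k l) i a =
        (g : Matrix ι ι F) i k * ((g⁻¹ : GL ι F) : Matrix ι ι F) k a +
        (g : Matrix ι ι F) i l * ((g⁻¹ : GL ι F) : Matrix ι ι F) l a := by
      rw [cd_apply, ← Finset.add_sum_erase _ _ (Finset.mem_univ k),
        ← Finset.add_sum_erase _ _ (Finset.mem_erase.2 ⟨hkl.symm, Finset.mem_univ l⟩),
        Finset.sum_eq_zero, add_zero]
      · unfold pr
        rw [if_pos rfl, if_neg hkl.symm, if_pos rfl, one_mul, one_mul]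
      · intro b hb
        rw [Finset.mem_erase, Finset.mem_erase] at hb
        unfold pr
        rw [if_neg hb.2.1, if_neg hb.1, zero_mul]
    rw [h6]
    rw [ha, hca] at h1
    have h7 : (if i = a then (1 : F) else 0) - (1 : Matrix ι ι F) i a = 0 := by
      rw [Matrix.one_apply, sub_self]
    rw [h7] at h1
    exact (mul_eq_zero.1 h1).resolve_left h3
  have hHP : ((g⁻¹ : GL ι F) : Matrix ι ι F) * cd g (pr k l) =
      Matrix.diagonal (pr k l) * ((g⁻¹ : GL ι F) : Matrix ι ι F) := by
    unfold cd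
    have h : ((g⁻¹ : GL ι F) : Matrix ι ι F) * (g : Matrix ι ι F) = 1 := by
      rw [← Units.val_mul, inv_mul_cancel, Units.val_one]
    calc _ = (((g⁻¹ : GL ι F) : Matrix ι ι F) * (g : Matrix ι ι F)) *
          Matrix.diagonal (pr k l) * ((g⁻¹ : GL ι F) : Matrix ι ι F) := by
          simp only [Matrix.mul_assoc]
      _ = _ := by rw [h, Matrix.one_mul]
  have hH : ∀ m, pr k l m * ((g⁻¹ : GL ι F) : Matrix ι ι F) m a = 0 := by
    intro m
    have := congrFun (congrFun hHP m) a
    rw [Matrix.diagonal_mul, Matrix.mul_apply, Finset.sum_eq_zero] at this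
    · exact this.symm
    · intro b _
      rw [hPa b, mul_zero]
  have hka : ((g⁻¹ : GL ι F) : Matrix ι ι F) k a = 0 := by
    have := hH k
    unfold pr at this
    rwa [if_pos rfl, one_mul] at this
  have hla : ((g⁻¹ : GL ι F) : Matrix ι ι F) l a = 0 := by
    have := hH l
    unfold pr at this
    rwa [if_neg hkl.symm, if_pos rfl, one_mul] at this
  refine mono_tk_two hF hn hX hg hkl (hX.mono_cd_of_col hg (tk_ne k l h2) (tk_prod hkl h2)
    (a := a) (j := a) ?_)
  intro i hi
  rw [cd_tk g hkl, hka, hla, mul_zero, mul_zero, mul_zero, mul_zero, add_zero, add_zero,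
    one_apply_ne hi]

theorem mono_tk [Fintype F] (hF : Fintype.card F = 5) (hn : 5 ≤ Fintype.card ι)
    (hX : Hyp X) {g : GL ι F} (hg : g ∈ X) {k l : ι} (hkl : k ≠ l) {a : F} (ha0 : a ≠ 0)
    (ha1 : a ≠ 1) (h : IsMono (cd g (tk k l a))) : IsMono (g : Matrix ι ι F) := by
  rcases elements_five hF ha0 ha1 with rfl | rfl | rfl
  · exact mono_tk_two hF hn hX hg hkl h
  · refine mono_tk_two hF hn hX hg hkl.symm ?_
    have : tk l k (2 : F) = tk k l 3 := by
      funext m
      unfold tk
      have h3i : (3 : F)⁻¹ = 2 := by rw [← two_inv hF, inv_inv]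
      rw [two_inv hF, h3i]
      by_cases hmk : m = k
      · subst hmk
        rw [if_neg hkl, if_pos rfl, if_pos rfl]
      · by_cases hml : m = l
        · subst hml
          rw [if_pos rfl, if_neg hmk, if_pos rfl]
        · rw [if_neg hml, if_neg hmk, if_neg hmk, if_neg hml]
    rw [this]
    exact h
  · exact mono_tk_four hF hn hX hg hkl h

/-! ### At most one zero in each row and column -/

theorem two_row [Fintype F] (hF : Fintype.card F = 5) (hn : 5 ≤ Fintype.card ι)
    (hX : Hyp X) {g : GL ι F} (hg : g ∈ X) (hgm : ¬ IsMono (g : Matrix ι ι F)) {i k l : ι}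
    (hkl : k ≠ l) (h0 : (g : Matrix ι ι F) i k = 0) : (g : Matrix ι ι F) i l ≠ 0 := by
  intro h1
  apply hgm
  have h2 := two_ne hF
  refine mono_tk_two hF hn hX hg hkl (hX.mono_cd_of_row hg (tk_ne k l h2) (tk_prod hkl h2)
    (i := i) ?_)
  intro j hj
  rw [cd_tk g hkl, h0, h1, zero_mul, zero_mul, mul_zero, mul_zero, add_zero, add_zero,
    one_apply_ne hj.symm]

theorem two_col_inv [Fintype F] (hF : Fintype.card F = 5) (hn : 5 ≤ Fintype.card ι)
    (hX : Hyp X) {g : GL ι F} (hg : g ∈ X) (hgm : ¬ IsMono (g : Matrix ι ι F)) {j k l : ι}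
    (hkl : k ≠ l) (h0 : ((g⁻¹ : GL ι F) : Matrix ι ι F) k j = 0) :
    ((g⁻¹ : GL ι F) : Matrix ι ι F) l j ≠ 0 := by
  intro h1
  apply hgm
  have h2 := two_ne hF
  refine mono_tk_two hF hn hX hg hkl (hX.mono_cd_of_col hg (tk_ne k l h2) (tk_prod hkl h2)
    (a := j) (j := j) ?_)
  intro i hi
  rw [cd_tk g hkl, h0, h1, mul_zero, mul_zero, mul_zero, mul_zero, add_zero, add_zero,
    one_apply_ne hi]

theorem two_col [Fintype F] (hF : Fintype.card F = 5) (hn : 5 ≤ Fintype.card ι)
    (hX : Hyp X) {g : GL ι F} (hg : g ∈ X) (hgm : ¬ IsMono (g : Matrix ι ι F)) {j k l : ι}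
    (hkl : k ≠ l) (h0 : (g : Matrix ι ι F) k j = 0) : (g : Matrix ι ι F) l j ≠ 0 := by
  have hgm' : ¬ IsMono ((g⁻¹ : GL ι F) : Matrix ι ι F) := fun h => hgm (isMono_inv_iff.1 h)
  have := two_col_inv hF hn hX (X.inv_mem hg) hgm' (j := j) hkl
  rw [inv_inv] at this
  exact this h0

theorem two_row_inv [Fintype F] (hF : Fintype.card F = 5) (hn : 5 ≤ Fintype.card ι)
    (hX : Hyp X) {g : GL ι F} (hg : g ∈ X) (hgm : ¬ IsMono (g : Matrix ι ι F)) {i k l : ι}
    (hkl : k ≠ l) (h0 : ((g⁻¹ : GL ι F) : Matrix ι ι F) i k = 0) :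
    ((g⁻¹ : GL ι F) : Matrix ι ι F) i l ≠ 0 := by
  have hgm' : ¬ IsMono ((g⁻¹ : GL ι F) : Matrix ι ι F) := fun h => hgm (isMono_inv_iff.1 h)
  exact two_row hF hn hX (X.inv_mem hg) hgm' hkl h0

theorem not_mono_cd [Fintype F] (hF : Fintype.card F = 5) (hn : 5 ≤ Fintype.card ι)
    (hX : Hyp X) {g : GL ι F} (hg : g ∈ X) (hgm : ¬ IsMono (g : Matrix ι ι F)) {t : ι → F}
    (ht : ∀ k, t k ≠ 0) (hts : ∃ k l, t k ≠ t l) : ¬ IsMono (cd g t) := by
  intro hmono
  have hy := cd_eq_conj g t ht
  rw [← hy] at hmono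
  obtain ⟨σ, c, hc, hmon⟩ := exists_mon hmono
  have hY : cd g t = (mon σ c hc : Matrix ι ι F) := by rw [← hy, hmon]
  have hinv : ((g⁻¹ : GL ι F) : Matrix ι ι F) * (g : Matrix ι ι F) = 1 := by
    rw [← Units.val_mul, inv_mul_cancel, Units.val_one]
  have hR : ∀ b m, (g : Matrix ι ι F) (σ b) m * t m = c b * (g : Matrix ι ι F) b m := by
    intro b m
    have h1 : (mon σ c hc : Matrix ι ι F) * (g : Matrix ι ι F) =
        (g : Matrix ι ι F) * Matrix.diagonal t := by
      rw [← hY]
      unfold cd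
      rw [Matrix.mul_assoc, hinv, Matrix.mul_one]
    have h2 := congrFun (congrFun h1 (σ b)) m
    rw [Matrix.mul_diagonal, Matrix.mul_apply, Finset.sum_eq_single b] at h2
    · rw [mon_apply, if_pos rfl] at h2
      exact h2.symm
    · intro b' _ hb'
      rw [mon_apply, if_neg (fun e => hb' (σ.injective e).symm), zero_mul]
    · intro hb
      exact absurd (Finset.mem_univ _) hb
  have hC : ∀ b m, ((g⁻¹ : GL ι F) : Matrix ι ι F) m (σ b) * c b =
      t m * ((g⁻¹ : GL ι F) : Matrix ι ι F) m b := by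
    intro b m
    have h1 : ((g⁻¹ : GL ι F) : Matrix ι ι F) * (mon σ c hc : Matrix ι ι F) =
        Matrix.diagonal t * ((g⁻¹ : GL ι F) : Matrix ι ι F) := by
      rw [← hY]
      unfold cd
      rw [← Matrix.mul_assoc, ← Matrix.mul_assoc, hinv, Matrix.one_mul]
    have h2 := congrFun (congrFun h1 m) b
    rw [Matrix.diagonal_mul, Matrix.mul_apply, Finset.sum_eq_single (σ b)] at h2
    · rw [mon_apply, if_pos rfl] at h2
      exact h2
    · intro b' _ hb'
      rw [mon_apply, if_neg hb', mul_zero]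
    · intro hb
      exact absurd (Finset.mem_univ _) hb
  by_cases hσ : ∀ b, σ b = b
  · obtain ⟨k, l, hkl⟩ := hts
    have hkl' : k ≠ l := fun e => hkl (by rw [e])
    obtain ⟨b, hbk, hbl⟩ : ∃ b, (g : Matrix ι ι F) b k ≠ 0 ∧ (g : Matrix ι ι F) b l ≠ 0 := by
      obtain ⟨a₁, a₂, a₃, h12, h13, h23, -⟩ := exists_three_other hn k k
      by_cases z1 : (g : Matrix ι ι F) a₁ k = 0
      · have n2 := two_col hF hn hX hg hgm h12 z1
        have n3 := two_col hF hn hX hg hgm h13 z1
        by_cases z2 : (g : Matrix ι ι F) a₂ l = 0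
        · exact ⟨a₃, n3, two_col hF hn hX hg hgm h23 z2⟩
        · exact ⟨a₂, n2, z2⟩
      · by_cases z1l : (g : Matrix ι ι F) a₁ l = 0
        · have n2 := two_col hF hn hX hg hgm h12 z1l
          have n3 := two_col hF hn hX hg hgm h13 z1l
          by_cases z2 : (g : Matrix ι ι F) a₂ k = 0
          · exact ⟨a₃, two_col hF hn hX hg hgm h23 z2, n3⟩
          · exact ⟨a₂, z2, n2⟩
        · exact ⟨a₁, z1, z1l⟩
    apply hkl
    have e1 := hR b k
    have e2 := hR b l
    rw [hσ b] at e1 e2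
    have e3 : t k = c b := mul_left_cancel₀ hbk (by rw [e1, mul_comm])
    have e4 : t l = c b := mul_left_cancel₀ hbl (by rw [e2, mul_comm])
    rw [e3, e4]
  · push Not at hσ
    obtain ⟨b, hb⟩ := hσ
    -- two equal entries of `t`
    obtain ⟨l, l', hll, htl⟩ : ∃ l l', l ≠ l' ∧ t l = t l' := by
      classical
      by_contra hcon
      push Not at hcon
      have hinj : Function.Injective t := by
        intro x y hxy
        by_contra hne
        exact hcon x y hne hxy
      have hcard : Fintype.card ι ≤ (Finset.univ.erase (0 : F)).card := by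
        rw [← Finset.card_univ, ← Finset.card_image_of_injective Finset.univ hinj]
        apply Finset.card_le_card
        intro x hx
        obtain ⟨y, -, rfl⟩ := Finset.mem_image.1 hx
        exact Finset.mem_erase.2 ⟨ht y, Finset.mem_univ _⟩
      rw [Finset.card_erase_of_mem (Finset.mem_univ _), Finset.card_univ, hF] at hcard
      omega
    obtain ⟨k, hk⟩ : ∃ k, t k ≠ t l := by
      obtain ⟨k, k', hkk⟩ := hts
      by_cases h : t k = t l
      · exact ⟨k', fun e => hkk (by rw [h, e])⟩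
      · exact ⟨k, h⟩
    have hlam0 : t k / t l ≠ 0 := div_ne_zero (ht _) (ht _)
    have hlam1 : t k / t l ≠ 1 := fun e => hk ((div_eq_one_iff_eq (ht l)).1 e)
    have hgm' : ¬ IsMono ((g⁻¹ : GL ι F) : Matrix ι ι F) := fun h => hgm (isMono_inv_iff.1 h)
    have hx := X.inv_mem hg
    have hxm : ¬ IsMono (cd g⁻¹ (tk b (σ b) (t k / t l))) := fun h =>
      hgm' (mono_tk hF hn hX hx (Ne.symm hb) hlam0 hlam1 h)
    have hzero : ∀ m, m ≠ k → t m = t l → cd g⁻¹ (tk b (σ b) (t k / t l)) k m = 0 := by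
      intro m hmk hm
      rw [cd_tk g⁻¹ (Ne.symm hb), inv_inv, one_apply_ne hmk.symm, zero_add]
      have e1 := hR b m
      have e2 := hC b k
      have e3 : ((g⁻¹ : GL ι F) : Matrix ι ι F) k (σ b) * (g : Matrix ι ι F) (σ b) m =
          t k / t l * (((g⁻¹ : GL ι F) : Matrix ι ι F) k b * (g : Matrix ι ι F) b m) := by
        rw [div_mul_eq_mul_div, eq_div_iff (ht l), ← hm]
        have hcb := hc b
        apply mul_left_cancel₀ hcb
        calc c b * (((g⁻¹ : GL ι F) : Matrix ι ι F) k (σ b) * (g : Matrix ι ι F) (σ b) m * t m)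
            = (((g⁻¹ : GL ι F) : Matrix ι ι F) k (σ b) * c b) *
              ((g : Matrix ι ι F) (σ b) m * t m) := by ring
          _ = _ := by rw [e1, e2]; ring
      rw [e3]
      have hli : (t k / t l)⁻¹ * (t k / t l) = 1 := inv_mul_cancel₀ hlam0
      linear_combination (((g⁻¹ : GL ι F) : Matrix ι ι F) k b * (g : Matrix ι ι F) b m) * hli
    have hkl : l ≠ k := fun e => hk (by rw [e])
    have hkl' : l' ≠ k := fun e => hk (by rw [htl, e])
    have hT := tk_ne b (σ b) hlam0
    have hcd := cd_eq_conj g⁻¹ _ hT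
    have hmem := hX.cd_mem hx hT (tk_prod (Ne.symm hb) hlam0)
    rw [← hcd] at hxm hzero
    exact two_row hF hn hX hmem hxm hll (hzero l hkl rfl) (hzero l' hkl' htl.symm)

/-- **Main theorem**: for `q = 5` and `n ≥ 5` every element of `X` is monomial. -/
theorem all_mono [Fintype F] (hF : Fintype.card F = 5) (hn : 5 ≤ Fintype.card ι)
    (hX : Hyp X) {g : GL ι F} (hg : g ∈ X) : IsMono (g : Matrix ι ι F) := by
  by_contra hgm
  -- five indices
  have hemb : Nonempty (Fin 5 ↪ ι) := by
    rw [Function.Embedding.nonempty_iff_card_le, Fintype.card_fin]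
    exact hn
  obtain ⟨f⟩ := hemb
  set i := f 0 with hi
  obtain ⟨j, j', -, hjj, -, -, hji, -, hji', -⟩ := exists_three_other hn i i
  set p : Fin 5 → F := fun k => (g : Matrix ι ι F) i (f k) *
    ((g⁻¹ : GL ι F) : Matrix ι ι F) (f k) j with hp
  set q : Fin 5 → F := fun k => (g : Matrix ι ι F) i (f k) *
    ((g⁻¹ : GL ι F) : Matrix ι ι F) (f k) j' with hq
  have hzero : ∀ k, p k = 0 ∧ q k = 0 → (g : Matrix ι ι F) i (f k) = 0 := by
    rintro k ⟨h1, h2⟩
    by_contra hne
    have e1 := (mul_eq_zero.1 h1).resolve_left hne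
    have e2 := (mul_eq_zero.1 h2).resolve_left hne
    exact two_row_inv hF hn hX hg hgm hjj e1 e2
  have hgood := Five.good_of_card hF (p := p) (q := q) (by
    intro k l hkl
    by_contra hcon
    push Not at hcon
    have hkl' : f k ≠ f l := fun e => hkl (f.injective e)
    exact two_row hF hn hX hg hgm hkl' (hzero k hcon.1) (hzero l hcon.2))
  obtain ⟨t, ht0, ht1, ⟨k0, hk0⟩, hs1, hs2⟩ := hgood
  -- extend by one
  set T : ι → F := Function.extend f t 1 with hT
  have hTf : ∀ k, T (f k) = t k := fun k => f.injective.extend_apply t 1 k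
  have hTo : ∀ m, (∀ k, f k ≠ m) → T m = 1 := by
    intro m hm
    rw [hT, Function.extend_apply']
    · rfl
    · rintro ⟨k, hk⟩
      exact hm k hk
  have hT0 : ∀ m, T m ≠ 0 := by
    intro m
    by_cases hm : ∃ k, f k = m
    · obtain ⟨k, rfl⟩ := hm
      rw [hTf]
      exact ht0 k
    · push Not at hm
      rw [hTo m hm]
      exact one_ne_zero
  have hsum : ∀ u : ι → F, (∀ m, (∀ k, f k ≠ m) → u m = 0) → ∑ m, u m = ∑ k, u (f k) := by
    intro u hu
    rw [← Finset.sum_map Finset.univ f u]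
    symm
    apply Finset.sum_subset (Finset.subset_univ _)
    intro m _ hm
    apply hu
    intro k hk
    apply hm
    rw [Finset.mem_map]
    exact ⟨k, Finset.mem_univ _, hk⟩
  have hT1 : ∏ m, T m = 1 := by
    rw [← ht1]
    have : ∏ m, T m = ∏ k, T (f k) := by
      rw [← Finset.prod_map Finset.univ f T]
      symm
      apply Finset.prod_subset (Finset.subset_univ _)
      intro m _ hm
      apply hTo
      intro k hk
      apply hm
      rw [Finset.mem_map]
      exact ⟨k, Finset.mem_univ _, hk⟩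
    rw [this]
    exact Finset.prod_congr rfl fun k _ => hTf k
  have hTs : ∃ k l, T k ≠ T l := by
    by_contra hcon
    push Not at hcon
    by_cases hsurj : ∀ m, ∃ k, f k = m
    · -- scalar of product one in dimension five
      have hcard : Fintype.card ι = 5 := by
        have h1 : Function.Surjective f := hsurj
        have h2 := Fintype.card_of_bijective ⟨f.injective, h1⟩
        rw [Fintype.card_fin] at h2
        exact h2.symm
      have hconst : ∀ k, t k = t 0 := by
        intro k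
        rw [← hTf, ← hTf]
        exact hcon _ _
      have hpow : t 0 ^ 5 = 1 := by
        have : ∏ k, t k = ∏ _k : Fin 5, t 0 := Finset.prod_congr rfl fun k _ => hconst k
        rw [this, Finset.prod_const, Finset.card_univ, Fintype.card_fin] at ht1
        exact ht1
      have hfrob : t 0 ^ 5 = t 0 := by
        have := FiniteField.pow_card (t 0)
        rwa [hF] at this
      apply hk0
      rw [hconst, ← hfrob, hpow]
    · push Not at hsurj
      obtain ⟨m, hm⟩ := hsurj
      apply hk0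
      rw [← hTf, hcon (f k0) m]
      exact hTo m (fun k => hm k)
  have hTm := not_mono_cd hF hn hX hg hgm hT0 hTs
  have hmem := hX.cd_mem hg hT0 hT1
  have hcd := cd_eq_conj g T hT0
  have hz : ∀ j'' : ι, j'' ≠ i → (∑ k, (t k - 1) * ((g : Matrix ι ι F) i (f k) *
      ((g⁻¹ : GL ι F) : Matrix ι ι F) (f k) j'') = 0) → cd g T i j'' = 0 := by
    intro j'' hj'' hs
    rw [cd_apply', one_apply_ne hj''.symm, zero_add, hsum, ← hs]
    · apply Finset.sum_congr rfl
      intro k _
      rw [hTf]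
    · intro m hm
      rw [hTo m hm, sub_self, zero_mul]
  rw [← hcd] at hTm hz
  exact two_row hF hn hX hmem hTm hjj (hz j hji hs1) (hz j' hji' hs2)

end Cfsg.Agent.H929.MonoFive
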