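import Cfsg.Agent.H929.MonoFive
import Cfsg.Agent.H871.MonoSL

/-!
Overgroups of the monomial group of `SL_n(q)`, `q ≥ 5`, `n ≥ 5`: the case `q = 5` is
`MonoFive.all_mono`, the case `q ≥ 7` is `H871.sl_monomial_of_seven`.
-/

set_option autoImplicit false
set_option linter.unusedSectionVars false

namespace Cfsg.Agent.H929.MonoFive

open Matrix Cfsg.Agent.H873 Cfsg.Agent.H871

variable {ι : Type} [Fintype ι] [DecidableEq ι] {F : Type*} [Field F]

/-- The transpose inverse. -/
def ti : GL ι F →* GL ι F where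
  toFun g := ⟨((g⁻¹ : GL ι F) : Matrix ι ι F)ᵀ, (g : Matrix ι ι F)ᵀ,
    by rw [← transpose_mul, ← Units.val_mul, mul_inv_cancel, Units.val_one, transpose_one],
    by rw [← transpose_mul, ← Units.val_mul, inv_mul_cancel, Units.val_one, transpose_one]⟩
  map_one' := by
    apply Units.ext
    simp
  map_mul' g h := by
    apply Units.ext
    change (((g * h)⁻¹ : GL ι F) : Matrix ι ι F)ᵀ =
      ((g⁻¹ : GL ι F) : Matrix ι ι F)ᵀ * ((h⁻¹ : GL ι F) : Matrix ι ι F)ᵀ
    rw [_root_.mul_inv_rev, Units.val_mul, transpose_mul]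

theorem coe_ti (g : GL ι F) : (ti g : Matrix ι ι F) = ((g⁻¹ : GL ι F) : Matrix ι ι F)ᵀ := rfl

theorem ti_ti (g : GL ι F) : ti (ti g) = g := by
  apply Units.ext
  rw [coe_ti, ← map_inv, coe_ti, inv_inv, transpose_transpose]

theorem ti_mem_sl {g : GL ι F} (h : g ∈ Cfsg.Geo.specialLinear ι F) :
    ti g ∈ Cfsg.Geo.specialLinear ι F := by
  have h1 := Subgroup.inv_mem _ h
  rw [mem_specialLinear_iff] at h1 ⊢
  rw [coe_ti, det_transpose, h1]

theorem ti_mn (σ : Equiv.Perm ι) (d : ι → Fˣ) : ti (mn σ d : GL ι F) = mn σ d⁻¹ := by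
  apply Units.ext
  ext i j
  rw [coe_ti, transpose_apply, mn_inv, mn_apply, mn_apply]
  by_cases h : σ i = j
  · subst h
    simp
  · rw [if_neg h, if_neg]
    intro h'
    apply h
    rw [← h']
    simp

theorem hasMon_map {M : Subgroup (GL ι F)} (hM : HasMon M) : HasMon (M.map ti) := by
  intro σ d h
  rw [Subgroup.mem_map]
  refine ⟨mn σ d⁻¹, hM σ d⁻¹ ?_, by rw [ti_mn, inv_inv]⟩
  have h1 : ∏ i, (d⁻¹) i = (∏ i, d i)⁻¹ := by
    rw [← Finset.prod_inv_distrib]
    rfl
  have h2 : sgn F σ = (∏ i, d i)⁻¹ := eq_inv_of_mul_eq_one_left h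
  have h3 : sgn F σ * sgn F σ = 1 := Units.ext (sign_mul_self σ)
  rw [h1, ← h2, h3]

theorem isMon_ti {g : GL ι F} (h : H871.IsMon (ti g)) : H871.IsMon g := by
  obtain ⟨σ, d, hd⟩ := (isMon_iff _).1 h
  have : g = mn σ d⁻¹ := by rw [← ti_ti g, hd, ti_mn]
  rw [this]
  exact isMon_mn _ _

theorem hyp_of {M : Subgroup (GL ι F)} (hM : HasMon M)
    (hMS : M ≤ Cfsg.Geo.specialLinear ι F) (hF : 5 ≤ Nat.card F) (hι : 5 ≤ Fintype.card ι)
    (hne : ¬ Cfsg.Geo.specialLinear ι F ≤ M) : Hyp M := by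
  have : Nontrivial ι := Fintype.one_lt_card_iff_nontrivial.1 (by omega)
  refine ⟨?_, ?_, ?_⟩
  · intro σ c hc hdet
    obtain ⟨τ, d, hd⟩ := (isMon_iff (mon σ c hc)).1 (isMono_mon σ c hc)
    rw [hd] at hdet ⊢
    apply hM
    apply Units.ext
    rw [det_mn] at hdet
    rw [Units.val_mul, coe_sgn, Units.val_one, ← hdet]
    push_cast
    rfl
  · intro x hx j h
    by_contra hcon
    exact hne (top_of_fix hM hMS hF hι hx hcon h)
  · intro x hx i h
    by_contra hcon
    have hM' := hasMon_map hM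
    have hMS' : M.map ti ≤ Cfsg.Geo.specialLinear ι F := by
      intro y hy
      obtain ⟨z, hz, rfl⟩ := Subgroup.mem_map.1 hy
      exact ti_mem_sl (hMS hz)
    have hcol : ∀ k, k ≠ i → (ti x : Matrix ι ι F) k i = 0 := by
      intro k hk
      rw [coe_ti, transpose_apply]
      have h1 := mul_inv_apply' x i k
      rw [one_apply_ne hk.symm, Finset.sum_eq_single i] at h1
      · have h2 := mul_inv_apply' x i i
        rw [one_apply_eq, Finset.sum_eq_single i] at h2
        · rcases mul_eq_zero.1 h1 with h3 | h3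
          · rw [h3, zero_mul] at h2
            exact absurd h2.symm one_ne_zero
          · exact h3
        · intro b _ hb
          rw [h b hb, zero_mul]
        · intro hb
          exact absurd (Finset.mem_univ _) hb
      · intro b _ hb
        rw [h b hb, zero_mul]
      · intro hb
        exact absurd (Finset.mem_univ _) hb
    have h1 := top_of_fix hM' hMS' hF hι (Subgroup.mem_map_of_mem ti hx)
      (fun h => hcon (isMon_ti h)) hcol
    apply hne
    intro s hs
    obtain ⟨m, hm, hms⟩ := Subgroup.mem_map.1 (h1 (ti_mem_sl hs))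
    have : m = s := by rw [← ti_ti m, hms, ti_ti]
    rwa [← this]

/-- **Overgroups of the monomial group of `SL_n(5)`**, `n ≥ 5`. -/
theorem sl_monomial_of_five {M : Subgroup (GL ι F)} (hM : HasMon M)
    (hMS : M ≤ Cfsg.Geo.specialLinear ι F) (hF : Nat.card F = 5) (hι : 5 ≤ Fintype.card ι) :
    (∀ g ∈ M, H871.IsMon g) ∨ Cfsg.Geo.specialLinear ι F ≤ M := by
  by_cases hne : Cfsg.Geo.specialLinear ι F ≤ M
  · exact Or.inr hne
  left
  have hfin : Finite F := Nat.finite_of_card_ne_zero (by omega)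
  have : Fintype F := Fintype.ofFinite F
  have hF' : Fintype.card F = 5 := by rw [← Nat.card_eq_fintype_card, hF]
  have hX := hyp_of hM hMS (by omega) hι hne
  intro g hg
  exact all_mono hF' hι hX hg

/-- **Overgroups of the monomial group of `SL_n(q)`**, `q ≥ 5` and `n ≥ 5`. -/
theorem sl_monomial_five {M : Subgroup (GL ι F)} (hM : HasMon M)
    (hMS : M ≤ Cfsg.Geo.specialLinear ι F) [Finite F] (hF : 5 ≤ Nat.card F)
    (hι : 5 ≤ Fintype.card ι) :
    (∀ g ∈ M, H871.IsMon g) ∨ Cfsg.Geo.specialLinear ι F ≤ M := by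
  by_cases h5 : Nat.card F = 5
  · exact sl_monomial_of_five hM hMS h5 hι
  · by_cases h6 : Nat.card F = 6
    · exfalso
      have : Fintype F := Fintype.ofFinite F
      rw [Nat.card_eq_fintype_card] at h6
      have h := FiniteField.isPrimePow_card F
      rw [h6] at h
      revert h
      decide
    · exact sl_monomial_of_seven hM hMS (by omega) hι

end Cfsg.Agent.H929.MonoFive
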